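import Cfsg.Agent.H492.FactsTh
import Cfsg.Agent.H33.IM

/-!
# Degrees of the Thompson group divisible by `p ^ 2` (helper800, task 3598 for S4844)
-/

set_option autoImplicit false

open Cfsg

namespace Cfsg.Agent.H800.Sq.Th

open Cfsg.Agent.H33 Cfsg.Agent.H492.FactsTh

universe u

theorem prime_cases {p : ℕ} (hp : p.Prime) (h : p ^ 2 ∣ 90745943887872000) : p = 2 ∨ p = 3 ∨ p = 5 ∨ p = 7 := by
  have h0 : (90745943887872000 : ℕ) = 2 ^ 15 * (3 ^ 10 * (5 ^ 3 * (7 ^ 2 * (13 * (19 * 31))))) := by norm_num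
  have h1 : p ∣ 90745943887872000 := (dvd_pow_self p two_ne_zero).trans h
  rw [h0] at h1
  have key : ∀ {a b n : ℕ}, a.Prime → p ∣ a ^ n * b → p = a ∨ p ∣ b := by
    intro a b n ha h2
    rcases (Nat.Prime.dvd_mul hp).1 h2 with h3 | h3
    · exact Or.inl ((Nat.prime_dvd_prime_iff_eq hp ha).1 (hp.dvd_of_dvd_pow h3))
    · exact Or.inr h3
  rcases key (by norm_num) h1 with h1 | h1
  · tauto
  rcases key (by norm_num) h1 with h1 | h1
  · tauto
  rcases key (by norm_num) h1 with h1 | h1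
  · tauto
  rcases key (by norm_num) h1 with h1 | h1
  · tauto
  exfalso
  rcases (Nat.Prime.dvd_mul hp).1 h1 with h2 | h2
  · rw [(Nat.prime_dvd_prime_iff_eq hp (by norm_num)).1 h2] at h
    norm_num at h
  rcases (Nat.Prime.dvd_mul hp).1 h2 with h3 | h3
  · rw [(Nat.prime_dvd_prime_iff_eq hp (by norm_num)).1 h3] at h
    norm_num at h
  · rw [(Nat.prime_dvd_prime_iff_eq hp (by norm_num)).1 h3] at h
    norm_num at h

/-- **`Th`, all primes `p` (odd or not) with `p ^ 2 ∣ |Th|`, except `p = 2`.** -/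
theorem sq_th {S : Type u} [Group S] [Finite S] (h : Cfsg.Spor.IsoTh S) (_hs : IsSimpleGroup S) {p : ℕ}
    [hp : Fact p.Prime] (hp2 : p ≠ 2) (hd : p ^ 2 ∣ Nat.card S) : Cfsg.Agent.H33.IM (p ^ 2) S := by
  obtain ⟨e⟩ := h
  refine IM.of_equiv e ?_
  rw [Nat.card_congr e.toEquiv, card_Th] at hd
  rcases prime_cases hp.out hd with rfl | rfl | rfl | rfl
  · exact absurd rfl hp2
  · obtain ⟨χ, hχ⟩ := exists_51684750
    exact IM.of_apply_one χ.2 hχ (by norm_num)
  · obtain ⟨χ, hχ⟩ := exists_28861000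
    exact IM.of_apply_one χ.2 hχ (by norm_num)
  · obtain ⟨χ, hχ⟩ := exists_28861000
    exact IM.of_apply_one χ.2 hχ (by norm_num)

end Cfsg.Agent.H800.Sq.Th
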